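import Mathlib
import Cfsg.Agent.Lib.ChevSub.Close

/-!
# Finite overgroups of the rational subgroup: the basic closure properties
-/

set_option autoImplicit false
set_option linter.unusedSectionVars false
set_option linter.unusedVariables false
set_option linter.unnecessarySimpa false

namespace Cfsg.Agent.Lib.ChevSub2

open Cfsg Cfsg.Lie Matrix Cfsg.Agent.Lib.Chev Cfsg.Agent.Lib.Chev.Full
open Cfsg.Agent.Lib.ChevTransfer Cfsg.Agent.Lib.ChevAut.SubField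
open Cfsg.Agent.Lib.ChevSub

variable {T : Tabs} {X : Extra} {R : RootTab} {D : ChevalleyDatum} (hF : Full T X R D)
variable {F : Type*} [Field F] (f : F ≃+* F)

include hF

theorem nS_mem_Lf {i : ℕ} (hi : i < D.rank) : hF.nS (F := F) i ∈ Lf D f := by
  have hs := hF.simple_lt hi
  unfold Full.nS Checks.nG
  exact mul_mem (mul_mem (xG_mem_Lf hF f hs (map_one f)) (xG_mem_Lf hF f (hF.neg_lt hs) (by simp)))
    (xG_mem_Lf hF f hs (map_one f))

section Over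

variable (H : Subgroup (GL D.Idx F)) (hM : Lf D f ≤ H)

include hM

theorem x_rat {r : ℕ} (hr : r < D.nroots) {t : F} (ht : f t = t) : hF.c.xG r t ∈ H :=
  hM (xG_mem_Lf hF f hr ht)

theorem nS_mem {i : ℕ} (hi : i < D.rank) : hF.nS (F := F) i ∈ H :=
  hM (nS_mem_Lf hF f hi)

/-- `V_r` is invariant under the Weyl group. -/
theorem wf_mem {i r : ℕ} (hi : i < D.rank) (hr : r < D.nroots) {t : F} (h : hF.c.xG r t ∈ H) :
    hF.c.xG (X.wf i r) t ∈ H := by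
  have h1 := mul_mem (mul_mem (nS_mem hF f H hM hi) h) (inv_mem (nS_mem hF f H hM hi))
  rw [hF.nS_conj_xG hi hr] at h1
  rcases mul_self_eq_one_iff.1 (hF.eta_mul_self hi hr) with e | e
  · rw [e] at h1
    simpa using h1
  · rw [e] at h1
    have h2 := x_neg_mem H hF h1
    simpa using h2

/-- Transfer inside a class of roots. -/
theorem orbit_iff {κ : ℕ} {L : ℕ → Prop} (hκ : κ < D.nroots)
    (hup : ∀ r < D.nroots, L r → r ≠ κ → ∃ i < D.rank, r < X.wf i r ∧ L (X.wf i r)) :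
    ∀ (m r : ℕ), r + m = D.nroots → r < D.nroots → L r → ∀ t : F, hF.c.xG r t ∈ H ↔ hF.c.xG κ t ∈ H := by
  intro m
  induction m using Nat.strong_induction_on with
  | _ m ih =>
    intro r hm hr hL t
    by_cases hrk : r = κ
    · rw [hrk]
    · obtain ⟨i, hi, h1, h2⟩ := hup r hr hL hrk
      have hw := hF.wf_lt hi hr
      have h3 := ih (D.nroots - X.wf i r) (by omega) (X.wf i r) (by omega) hw h2 t
      constructor
      · intro h4
        exact h3.1 (wf_mem hF f H hM hi hr h4)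
      · intro h4
        have h5 := wf_mem hF f H hM hi hw (h3.2 h4)
        rwa [hF.wf_wf hi hr] at h5

theorem orbit_iff' {κ : ℕ} {L : ℕ → Prop} (hκ : κ < D.nroots)
    (hup : ∀ r < D.nroots, L r → r ≠ κ → ∃ i < D.rank, r < X.wf i r ∧ L (X.wf i r))
    {r : ℕ} (hr : r < D.nroots) (hL : L r) (t : F) : hF.c.xG r t ∈ H ↔ hF.c.xG κ t ∈ H :=
  orbit_iff hF f H hM hκ hup (D.nroots - r) r (by omega) hr hL t

/-- The root subgroup at the head of a class with a triple is closed under products. -/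
theorem long_mul {κ r s m : ℕ} {L : ℕ → Prop} (hκ : κ < D.nroots)
    (hup : ∀ r < D.nroots, L r → r ≠ κ → ∃ i < D.rank, r < X.wf i r ∧ L (X.wf i r))
    (hr : r < D.nroots) (hs : s < D.nroots) (hm : m < D.nroots) (hLr : L r) (hLs : L s) (hLm : L m)
    (h1 : s ≠ r) (h2 : s ≠ D.neg r) {C : ℤ} {L' : List (ℕ × ℤ × ℕ × ℕ)}
    (hterms : D.commTerms r s = (m, C, 1, 1) :: L') (hL : ∀ c ∈ L', ((c.2.1 : ℤ) : F) = 0)
    (hC : (C : F) = 1 ∨ (C : F) = -1) {a b : F} (ha : hF.c.xG κ a ∈ H) (hb : hF.c.xG κ b ∈ H) :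
    hF.c.xG κ (a * b) ∈ H := by
  have hor' := fun r' (h3 : r' < D.nroots) (h4 : L r') t => orbit_iff' hF f H hM hκ hup h3 h4 t
  have h3 := triple_mem hF H hr hs h1 h2 hterms hL ((hor' r hr hLr a).2 ha) ((hor' s hs hLs b).2 hb)
  have h4 := (hor' m hm hLm _).1 h3
  rcases hC with e | e
  · rw [e] at h4
    have h5 := x_neg_mem H hF h4
    simpa using h5
  · rw [e] at h4
    simpa using h4

/-- The torus step with a given unit. -/
theorem torus_step {j s : ℕ} (hj : j < D.rank) (hs : s < D.nroots) (c : Fˣ)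
    (hV : hF.c.xG (D.simple j) (c : F) ∈ H) (hV' : hF.c.xG (D.neg (D.simple j)) (-(c : F)⁻¹) ∈ H) :
    hF.c.xG s (((c ^ D.cartan j s : Fˣ) : F)) ∈ H := by
  have hsj := hF.simple_lt hj
  have h1 : hF.c.hG (D.simple j) (c : F) ∈ H := by
    unfold Checks.hG Checks.nG
    exact mul_mem (mul_mem (mul_mem hV hV') hV)
      (mul_mem (mul_mem (x_rat hF f H hM hsj (by simp)) (x_rat hF f H hM (hF.neg_lt hsj) (by simp)))
        (x_rat hF f H hM hsj (by simp)))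
  rw [hF.hSimple_eq_tor ⟨j, hj⟩ c] at h1
  have h2 := mul_mem (mul_mem h1 (x_rat hF f H hM hs (map_one f))) (inv_mem h1)
  rw [hF.tor_conj_xG _ hs, hF.mulSingle_chiT, mul_one] at h2
  exact h2

/-- The first half of the special case. -/
theorem top_of_pair {top δ j0 θ' : ℕ} (htop : top < D.nroots) (hδ : δ < D.nroots)
    (hj0 : j0 < D.rank) (hwδ : X.wf j0 δ = δ) (hθ' : X.wf j0 top = θ') (hθ'n : θ' < D.nroots)
    (hne1 : θ' ≠ D.simple j0) (hne2 : θ' ≠ D.neg (D.simple j0)) {C3 : ℤ}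
    (hterms3 : D.commTerms (D.simple j0) θ' = [(top, C3, 1, 1)]) (hC3 : C3 = 1 ∨ C3 = -1)
    (hcomm0 : ∀ a : F, hF.c.xG δ a * hF.c.xG (D.simple j0) 1 = hF.c.xG (D.simple j0) 1 * hF.c.xG δ a)
    {s0 c0 : F} (hx : hF.c.xG δ s0 * hF.c.xG top c0 ∈ H) : hF.c.xG top c0 ∈ H := by
  have hsj0 := hF.simple_lt hj0
  -- the conjugate
  have h3 := mul_mem (mul_mem (nS_mem hF f H hM hj0) hx) (inv_mem (nS_mem hF f H hM hj0))
  have e1 : hF.nS j0 * (hF.c.xG δ s0 * hF.c.xG top c0) * (hF.nS j0)⁻¹ =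
      (hF.nS j0 * hF.c.xG δ s0 * (hF.nS j0)⁻¹) * (hF.nS j0 * hF.c.xG top c0 * (hF.nS j0)⁻¹) := by group
  rw [e1, hF.nS_conj_xG hj0 hδ, hF.nS_conj_xG hj0 htop, hwδ, hθ'] at h3
  set a : F := ((X.eta j0 δ : ℤ) : F) * s0 with ha
  set b : F := ((X.eta j0 top : ℤ) : F) * c0 with hb
  have hx0 : hF.c.xG (D.simple j0) (1 : F) ∈ H := x_rat hF f H hM hsj0 (map_one f)
  have h4 := hF.xG_comm hsj0 hθ'n hne1 hne2 (1 : F) b
  have h5 : hF.c.wordG (D.commWord F (D.simple j0) θ' 1 b) = hF.c.xG top ((C3 : F) * (-1) * b) := by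
    unfold ChevalleyDatum.commWord
    rw [hterms3]
    simp [Checks.wordG_cons, Checks.wordG_nil]
  rw [h5] at h4
  have h6 : hF.c.xG top ((C3 : F) * (-1) * b) =
      (hF.c.xG δ a * hF.c.xG θ' b)⁻¹ * (hF.c.xG (D.simple j0) 1)⁻¹ * (hF.c.xG δ a * hF.c.xG θ' b) *
        hF.c.xG (D.simple j0) 1 := by
    have e2 : (hF.c.xG δ a * hF.c.xG θ' b) * hF.c.xG (D.simple j0) 1 =
        hF.c.xG (D.simple j0) 1 * (hF.c.xG δ a * hF.c.xG θ' b) * hF.c.xG top ((C3 : F) * (-1) * b) := by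
      rw [mul_assoc, h4, ← mul_assoc, ← mul_assoc, hcomm0 a]
      group
    rw [mul_assoc _ _ (hF.c.xG (D.simple j0) 1), e2]
    group
  have h7 : hF.c.xG top ((C3 : F) * (-1) * b) ∈ H := by
    rw [h6]
    exact mul_mem (mul_mem (mul_mem (inv_mem h3) (inv_mem hx0)) h3) hx0
  have e3 : (C3 : F) * (-1) * b = ((- C3 * X.eta j0 top : ℤ) : F) * c0 := by
    rw [hb]
    push_cast
    ring
  rw [e3] at h7
  have h9 : (- C3 * X.eta j0 top) = 1 ∨ (- C3 * X.eta j0 top) = -1 := by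
    rcases mul_self_eq_one_iff.1 (hF.eta_mul_self hj0 htop) with e | e <;> rcases hC3 with e' | e' <;>
      rw [e, e'] <;> simp
  rcases h9 with e | e
  · rw [e] at h7
    simpa using h7
  · rw [e] at h7
    have := x_neg_mem H hF h7
    simpa using this

omit hM in
/-- The inverse in a finite multiplicatively closed root set. -/
theorem inv_of_finite [Finite ↥H] {κ : ℕ} (hκ : κ < D.nroots)
    (hmul : ∀ {a b : F}, hF.c.xG κ a ∈ H → hF.c.xG κ b ∈ H → hF.c.xG κ (a * b) ∈ H)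
    {s : F} (hs0 : s ≠ 0) (hs : hF.c.xG κ s ∈ H) : hF.c.xG κ s⁻¹ ∈ H := by
  have hpow : ∀ n : ℕ, hF.c.xG κ (s ^ (n + 1)) ∈ H := by
    intro n
    induction n with
    | zero => simpa using hs
    | succ n ih =>
      rw [pow_succ]
      exact hmul ih hs
  have hne : ∃ i j : ℕ, i ≠ j ∧ (⟨_, hpow i⟩ : ↥H) = ⟨_, hpow j⟩ :=
    Finite.exists_ne_map_eq_of_infinite (fun n : ℕ => (⟨_, hpow n⟩ : ↥H))
  obtain ⟨i, j, hij, he⟩ := hne
  have h1 : s ^ (i + 1) = s ^ (j + 1) := hF.xG_param_inj hκ (congrArg Subtype.val he)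
  have key : ∀ {i j : ℕ}, i < j → s ^ (i + 1) = s ^ (j + 1) → hF.c.xG κ s⁻¹ ∈ H := by
    intro i j hlt h1
    have h2 : s ^ (j - i) = 1 := by
      have h3 : s ^ (i + 1) * s ^ (j - i) = s ^ (i + 1) * 1 := by
        rw [← pow_add, mul_one, h1]
        congr 1
        omega
      exact mul_left_cancel₀ (pow_ne_zero _ hs0) h3
    have h4 : s⁻¹ = s ^ (j - i - 1) := by
      symm
      apply eq_inv_of_mul_eq_one_left
      rw [← pow_succ]
      rw [show j - i - 1 + 1 = j - i by omega]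
      exact h2
    rw [h4]
    rcases Nat.eq_zero_or_pos (j - i - 1) with h5 | h5
    · rw [h5, pow_zero]
      have h6 : s = 1 := by
        rw [h5, pow_zero] at h4
        exact _root_.inv_eq_one.1 h4
      rwa [h6] at hs
    · have := hpow (j - i - 1 - 1)
      rwa [show j - i - 1 - 1 + 1 = j - i - 1 by omega] at this
  rcases lt_or_gt_of_ne hij with h | h
  · exact key h h1
  · exact key h h1.symm

/-- The special case: the coordinate at `δ` is rational. -/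
theorem special_fixed [Finite ↥H] {top δ r2 s2 m2 j2 s3 j0 θ' : ℕ} {L : ℕ → Prop} (htop : top < D.nroots)
    (hδ : δ < D.nroots)
    (hup : ∀ r < D.nroots, L r → r ≠ top → ∃ i < D.rank, r < X.wf i r ∧ L (X.wf i r))
    (hupS : ∀ r < D.nroots, ¬ L r → r ≠ δ → ∃ i < D.rank, r < X.wf i r ∧ ¬ L (X.wf i r))
    (hfix : ∀ t : F, hF.c.xG top t ∈ H → f t = t)
    (hr2 : r2 < D.nroots) (hs2 : s2 < D.nroots) (hm2 : m2 < D.nroots) (hLr2 : ¬ L r2) (hLs2 : ¬ L s2) (hLm2 : ¬ L m2)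
    (h12 : s2 ≠ r2) (h22 : s2 ≠ D.neg r2) {C2 : ℤ} {L2 : List (ℕ × ℤ × ℕ × ℕ)}
    (hterms2 : D.commTerms r2 s2 = (m2, C2, 1, 1) :: L2) (hL2 : ∀ c ∈ L2, ((c.2.1 : ℤ) : F) = 0)
    (hC2 : (C2 : F) = 1 ∨ (C2 : F) = -1)
    (hj2 : j2 < D.rank) (hj2L : ¬ L (D.simple j2)) (hj2L' : ¬ L (D.neg (D.simple j2)))
    (hs3 : s3 < D.nroots) (hs3L : L s3) {n : ℕ} (hcart : D.cartan j2 s3 = -(n : ℤ))
    (hinj : ∀ a b : F, a ^ n = b ^ n → a = b)
    (hj0 : j0 < D.rank) (hwδ : X.wf j0 δ = δ) (hθ' : X.wf j0 top = θ') (hθ'n : θ' < D.nroots)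
    (hne1 : θ' ≠ D.simple j0) (hne2 : θ' ≠ D.neg (D.simple j0)) {C3 : ℤ}
    (hterms3 : D.commTerms (D.simple j0) θ' = [(top, C3, 1, 1)]) (hC3 : C3 = 1 ∨ C3 = -1)
    (hcomm0 : ∀ a : F, hF.c.xG δ a * hF.c.xG (D.simple j0) 1 = hF.c.xG (D.simple j0) 1 * hF.c.xG δ a)
    {s0 c0 : F} (hx : hF.c.xG δ s0 * hF.c.xG top c0 ∈ H) : f s0 = s0 := by
  by_contra hs0
  have hs00 : s0 ≠ 0 := by
    rintro rfl
    exact hs0 (map_zero f)
  have h8 := top_of_pair hF f H hM htop hδ hj0 hwδ hθ' hθ'n hne1 hne2 hterms3 hC3 hcomm0 hx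
  have h10 : hF.c.xG δ s0 ∈ H := by
    have e : hF.c.xG δ s0 = (hF.c.xG δ s0 * hF.c.xG top c0) * (hF.c.xG top c0)⁻¹ := by group
    rw [e]
    exact mul_mem hx (inv_mem h8)
  have hmul : ∀ {a b : F}, hF.c.xG δ a ∈ H → hF.c.xG δ b ∈ H → hF.c.xG δ (a * b) ∈ H := fun ha hb =>
    long_mul hF f H hM (L := fun r => ¬ L r) hδ hupS hr2 hs2 hm2 hLr2 hLs2 hLm2 h12 h22 hterms2 hL2 hC2 ha hb
  have h11 := inv_of_finite hF H hδ hmul hs00 h10
  have hsj2 := hF.simple_lt hj2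
  set c : Fˣ := Units.mk0 s0 hs00 with hc
  have h12' : hF.c.xG (D.simple j2) (c : F) ∈ H :=
    (orbit_iff' hF f H hM (L := fun r => ¬ L r) hδ hupS hsj2 hj2L _).2 h10
  have h13 : hF.c.xG (D.neg (D.simple j2)) (-(c : F)⁻¹) ∈ H :=
    (orbit_iff' hF f H hM (L := fun r => ¬ L r) hδ hupS (hF.neg_lt hsj2) hj2L' _).2 (x_neg_mem H hF h11)
  have h14 := torus_step hF f H hM hj2 hs3 c h12' h13
  have h15 := (orbit_iff' hF f H hM (L := L) htop hup hs3 hs3L _).1 h14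
  have h16 := hfix _ h15
  rw [hcart] at h16
  apply hs0
  apply hinj
  have e : (((c ^ (-(n : ℤ)) : Fˣ)) : F) = (s0 ^ n)⁻¹ := by
    simp [hc]
  rw [e, map_inv₀] at h16
  rw [← map_pow]
  exact inv_injective h16

end Over

end Cfsg.Agent.Lib.ChevSub2
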