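import Mathlib
import Cfsg.Agent.Lib.ChevSub.Two
import Cfsg.Agent.Lib.ChevSub2.Base

/-!
# Rational representatives in the closure of the rational root elements; Borel-Tits for finite overgroups
-/

set_option autoImplicit false
set_option linter.unusedSectionVars false
set_option linter.unusedVariables false
set_option linter.unnecessarySimpa false

namespace Cfsg.Agent.Lib.ChevSub2

open Cfsg Cfsg.Lie Matrix Cfsg.Agent.Lib.Chev Cfsg.Agent.Lib.Chev.Full Cfsg.Agent.Lib.Chev.Tri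
open Cfsg.Agent.Lib.ChevTransfer Cfsg.Agent.Lib.ChevAut.SubField Cfsg.Agent.Lib.ChevAut.WClosed
open Cfsg.Agent.Lib.ChevAut.ParabFit Cfsg.Agent.Lib.ChevInv Cfsg.Agent.Lib.ChevInv.CentG
open Cfsg.Agent.Lib.ChevSub Cfsg.Agent.Lib.StronglyEmbedded

variable {T : Tabs} {X : Extra} {R : RootTab} {D : ChevalleyDatum} (hF : Full T X R D)
variable {F : Type*} [Field F] (f : F ≃+* F)

include hF

theorem NJ_le_Lf (J : Set ℕ) : NJ hF F J ≤ Lf D f := by
  unfold NJ
  rw [Subgroup.closure_le]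
  rintro g ⟨j, hj, _, rfl⟩
  exact nS_mem_Lf hF f hj

theorem U_fixed_mem_Lf {u : GL D.Idx F} (hu : u ∈ D.posUnipotent F) (hf : glMap D f u = u) : u ∈ Lf D f := by
  have hNn : R.N ≤ D.nroots := by
    have := hF.two
    omega
  rw [hF.U_eq_Uk] at hu
  obtain ⟨τ, rfl⟩ := hF.exists_ordW (D.nroots - R.N) R.N (by omega) le_rfl u hu
  rw [sig_ordW hF f (D.nroots - R.N) R.N (by omega)] at hf
  have h1 := hF.ordW_inj (D.nroots - R.N) R.N (by omega) le_rfl _ _ hf
  exact ordW_mem_Lf hF f (D.nroots - R.N) R.N (by omega) _ (fun r h2 h3 => h1 r h2 h3)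

/-- A rational representative of a `σ`-stable coset of a standard parabolic. -/
theorem rat_parabolic (J : Set ℕ) {g : GL D.Idx F} (hg : g ∈ D.group F)
    (h : g⁻¹ * glMap D f g ∈ D.parabolicSubgroup F J) :
    ∃ a ∈ Lf D f, a⁻¹ * g ∈ D.parabolicSubgroup F J := by
  classical
  obtain ⟨b, hb, n, b', hb', rfl⟩ := exists_bruhat hF hg
  obtain ⟨u, hu, t, ht, rfl⟩ := hF.mem_borel_iff.1 hb
  let n2 : ↥(D.monomialSubgroup F) := ⟨t, hF.c.diagonal_le_monomial ht⟩ * n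
  obtain ⟨n', hn', e⟩ := exists_NJ_rep hF _ n2 rfl
  have hn'M : n' ∈ D.monomialSubgroup F := NJ_le_monomial hF Set.univ hn'
  let nn : ↥(D.monomialSubgroup F) := ⟨n', hn'M⟩
  obtain ⟨a, ha⟩ := exists_lin_transport hF (hF.rhoN_mem_Wk nn) (aJ J)
  obtain ⟨u1, hu1, u2, hu2, rfl⟩ := hF.exists_factor
    (fun r => D.IsPosRoot r ∧ R.lin D.rank a r < 0) (fun r => D.IsPosRoot r ∧ 0 ≤ R.lin D.rank a r)
    (fun r hr => by
      by_cases h0 : R.lin D.rank a r < 0
      · exact Or.inl ⟨hr, h0⟩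
      · exact Or.inr ⟨hr, not_lt.1 h0⟩) hu
  have hu1U : u1 ∈ D.posUnipotent F := by
    have h0 : rootClosure D F (fun r => D.IsPosRoot r ∧ R.lin D.rank a r < 0) ≤ D.posUnipotent F := by
      unfold rootClosure ChevalleyDatum.posUnipotent
      apply Subgroup.closure_mono
      rintro g ⟨s, t, hs, hg⟩
      exact ⟨s, t, hs.1, hg⟩
    exact h0 hu1
  have hρ : ∀ r, ∀ hr : r < D.nroots,
      R.lin D.rank (aJ J) ((hF.rhoN F nn⁻¹ ⟨r, hr⟩ : Fin D.nroots) : ℕ) = R.lin D.rank a r := by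
    intro r hr
    have h1 := ha (hF.rhoN F nn⁻¹ ⟨r, hr⟩)
    rw [← h1, map_inv]
    simp
  -- the positive part goes into the parabolic
  have hu2' : n'⁻¹ * u2 * n' ∈ D.parabolicSubgroup F J := by
    have h1 : nn⁻¹.1 * u2 * nn⁻¹.1⁻¹ ∈ rootClosure D F (fun s => s < D.nroots ∧ 0 ≤ R.lin D.rank (aJ J) s) := by
      refine conj_rootClosure hF nn⁻¹ ?_ hu2
      rintro r ⟨h2, h3⟩
      have hr := (hF.isPos_iff.1 h2).1
      refine ⟨hr, Fin.is_lt _, ?_⟩
      rw [hρ r hr]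
      exact h3
    have h2 : rootClosure D F (fun s => s < D.nroots ∧ 0 ≤ R.lin D.rank (aJ J) s) ≤
        D.parabolicSubgroup F J := by
      rw [rootClosure, Subgroup.closure_le]
      rintro g ⟨s, t, hs, hg⟩
      rw [hF.c.eq_xG hg]
      exact xG_mem_parabolic_of_lin hF J hs.1 hs.2 t
    have h3 := h2 h1
    simpa [nn] using h3
  set τ := n'⁻¹ * n2.1 with hτ
  have hn2 : t * n.1 = n' * τ := by
    rw [hτ]
    show t * n.1 = n' * (n'⁻¹ * (t * n.1))
    group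
  set a0 := u1 * n' with ha0
  have hgeq : u1 * u2 * t * n.1 * b' = a0 * ((n'⁻¹ * u2 * n') * τ * b') := by
    have e1 : u1 * u2 * t * n.1 * b' = u1 * u2 * (t * n.1) * b' := by group
    rw [e1, hn2, ha0]
    group
  set p := (n'⁻¹ * u2 * n') * τ * b' with hp
  have hpP : p ∈ D.parabolicSubgroup F J :=
    mul_mem (mul_mem hu2' (hF.borel_le_parabolic J (hF.c.diagonal_le_borel e)))
      (hF.borel_le_parabolic J hb')
  rw [hgeq] at h hg ⊢
  have hsgn : glMap D f n' = n' := NJ_sig hF f hn'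
  have h3 : a0⁻¹ * glMap D f a0 ∈ D.parabolicSubgroup F J := by
    have e1 : a0⁻¹ * glMap D f a0 = p * ((a0 * p)⁻¹ * glMap D f (a0 * p)) * (glMap D f p)⁻¹ := by
      rw [map_mul (glMap D f) a0 p]
      generalize glMap D f a0 = A
      generalize glMap D f p = B
      generalize p = P
      generalize a0 = Q
      group
    rw [e1]
    exact mul_mem (mul_mem hpP h) (inv_mem (sig_parabolic hF f J hpP))
  have h4 : a0⁻¹ * glMap D f a0 = nn⁻¹.1 * (u1⁻¹ * glMap D f u1) * nn⁻¹.1⁻¹ := by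
    rw [ha0, map_mul, hsgn]
    show _ = n'⁻¹ * (u1⁻¹ * glMap D f u1) * n'⁻¹⁻¹
    group
  have h5 : nn⁻¹.1 * (u1⁻¹ * glMap D f u1) * nn⁻¹.1⁻¹ ∈
      rootClosure D F (fun s => s < D.nroots ∧ R.lin D.rank (aJ J) s < 0) := by
    refine conj_rootClosure hF nn⁻¹ ?_
      (mul_mem (inv_mem hu1) (sig_rootClosure hF f hu1))
    rintro r ⟨h2, h3⟩
    have hr := (hF.isPos_iff.1 h2).1
    refine ⟨hr, Fin.is_lt _, ?_⟩
    rw [hρ r hr]
    exact h3
  rw [← h4] at h5
  have h6 := eq_one_of_parab hF J h3 h5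
  refine ⟨a0, ?_, ?_⟩
  · have h7 : glMap D f a0 = a0 := by
      have := mul_left_cancel (a := a0⁻¹) (b := glMap D f a0) (c := a0) (by rw [h6]; simp)
      exact this
    have h8 : glMap D f u1 = u1 := by
      rw [ha0, map_mul, hsgn] at h7
      exact mul_right_cancel h7
    exact mul_mem (U_fixed_mem_Lf hF f hu1U h8) (NJ_le_Lf hF f _ hn')
  · simpa using hpP


/-! ### Elements of `G` normalizing the rational unipotent elements -/

omit f in
/-- An element conjugating the `x_r(1)` into `U` sends positive roots to positive roots. -/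
theorem pos_of_norm {b b' : GL D.Idx F} {n : ↥(D.monomialSubgroup F)}
    (hb : b ∈ D.borelSubgroup F) (hb' : b' ∈ D.borelSubgroup F)
    (hc : ∀ r < D.nroots, R.N ≤ r → (b * n.1 * b') * hF.c.xG r 1 * (b * n.1 * b')⁻¹ ∈ D.posUnipotent F) :
    ∀ (m r : ℕ) (hr : r < D.nroots), r + m = D.nroots → R.N ≤ r →
      R.N ≤ ((hF.rhoN F n ⟨r, hr⟩ : Fin D.nroots) : ℕ) := by
  classical
  intro m
  induction m using Nat.strong_induction_on with
  | _ m ih =>
    intro r hr hm hpos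
    obtain ⟨d, hd, z, hz, e1⟩ := conj_borel_form hF hpos hr hb' (c := 1) one_ne_zero
    obtain ⟨τ, rfl⟩ := hF.exists_ordW (D.nroots - (r + 1)) (r + 1) (by omega) (by omega) z hz
    have hz2 : n.1 * hF.ordW (r + 1) τ * n.1⁻¹ ∈ D.posUnipotent F := by
      refine conj_rootClosure hF n (Q := fun s => r + 1 ≤ s ∧ s < D.nroots) (Q' := D.IsPosRoot) ?_ hz
      rintro s ⟨h1, h2⟩
      refine ⟨h2, ?_⟩
      exact (hF.isPos_iff).2 ⟨Fin.is_lt _, ih (D.nroots - s) (by omega) s h2 (by omega) (by omega)⟩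
    have hbN : b⁻¹ ∈ Subgroup.normalizer (D.posUnipotent F : Set (GL D.Idx F)) := by
      obtain ⟨u, hu, t, ht, hut⟩ := hF.mem_borel_iff.1 (inv_mem hb)
      rw [hut]
      exact mul_mem (Subgroup.le_normalizer hu) (hF.diagonal_le_normalizer_U ht)
    have h1 : n.1 * (b' * hF.c.xG r 1 * b'⁻¹) * n.1⁻¹ ∈ D.posUnipotent F := by
      have h2 := (Subgroup.mem_set_normalizer_iff.1 hbN _).1 (hc r hr hpos)
      have e : b⁻¹ * ((b * n.1 * b') * hF.c.xG r 1 * (b * n.1 * b')⁻¹) * b⁻¹⁻¹ =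
          n.1 * (b' * hF.c.xG r 1 * b'⁻¹) * n.1⁻¹ := by group
      rwa [e] at h2
    rw [e1] at h1
    obtain ⟨u0, hu0⟩ := hF.rhoN_spec_apply n ⟨r, hr⟩
    have h3 : n.1 * (hF.c.xG r d * hF.ordW (r + 1) τ) * n.1⁻¹ =
        (n.1 * hF.c.xG r d * n.1⁻¹) * (n.1 * hF.ordW (r + 1) τ * n.1⁻¹) := by group
    rw [h3] at h1
    have h4 := hu0 d
    simp only at h4
    rw [h4] at h1
    have h5 := mul_mem h1 (inv_mem hz2)
    rw [mul_inv_cancel_right] at h5
    exact (hF.xG_mem_U_iff (Fin.is_lt _) (mul_ne_zero (Units.ne_zero _) hd)).1 h5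

omit f in
theorem mem_B_of_norm {y : GL D.Idx F} (hy : y ∈ D.group F)
    (hc : ∀ r < D.nroots, R.N ≤ r → y * hF.c.xG r 1 * y⁻¹ ∈ D.posUnipotent F) : y ∈ D.borelSubgroup F := by
  obtain ⟨b, hb, n, b', hb', rfl⟩ := exists_bruhat hF hy
  have h1 := pos_of_norm hF hb hb' hc
  have hσ := hF.rhoN_mem_Wk n
  have h2 : hF.rhoN F n = 1 := by
    apply hF.eq_one_of_invF hσ
    by_contra hne
    obtain ⟨i, hi, -, hneg⟩ := hF.exists_simple_neg hσ hne
    have hs := hF.simple_lt hi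
    have h3 := h1 (D.nroots - D.simple i) (D.simple i) hs (by omega) (hF.simple_ge hi)
    omega
  have h3 := hF.mem_diagonal_of_rhoN_eq_one h2
  exact mul_mem (mul_mem hb (hF.c.diagonal_le_borel h3)) hb'

/-! ### `p`-elements -/

omit f in
theorem xG_pow (r : ℕ) (t : F) (n : ℕ) : hF.c.xG r t ^ n = hF.c.xG r ((n : F) * t) := by
  induction n with
  | zero => simp [hF.c.xG_zero]
  | succ n ih =>
    rw [pow_succ, ih, hF.c.xG_add]
    congr 1
    push_cast
    ring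

omit f in
theorem Uk_pow {p : ℕ} [CharP F p] : ∀ (m k : ℕ), k + m = D.nroots → R.N ≤ k → ∀ u ∈ Uk D F k,
    u ^ (p ^ m) = 1 := by
  intro m
  induction m with
  | zero =>
    intro k hk _ u hu
    rw [Uk_top_eq_bot (by omega), Subgroup.mem_bot] at hu
    simp [hu]
  | succ m ih =>
    intro k hk hkN u hu
    have hkn : k < D.nroots := by omega
    obtain ⟨τ, rfl⟩ := hF.exists_ordW (m + 1) k hk hkN u hu
    rw [hF.ordW_succ hkn]
    set a := hF.c.xG k (τ k) with ha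
    set w := hF.ordW (k + 1) τ with hw
    have hwm : w ∈ Uk D F (k + 1) := hF.ordW_mem _ _
    have haU : a ∈ D.posUnipotent F := hF.xG_mem_U hkn hkN _
    have hN := hF.U_le_normalizer_Uk (F := F) (k := k + 1) (by omega)
    have key : ∀ n : ℕ, ∃ w' ∈ Uk D F (k + 1), (a * w) ^ n = a ^ n * w' := by
      intro n
      induction n with
      | zero => exact ⟨1, one_mem _, by simp⟩
      | succ n ih2 =>
        obtain ⟨w', hw', e⟩ := ih2
        have h1 := (Subgroup.mem_set_normalizer_iff.1 (hN (inv_mem haU)) w').1 hw'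
        rw [inv_inv] at h1
        refine ⟨(a⁻¹ * w' * a) * w, mul_mem h1 hwm, ?_⟩
        rw [pow_succ, e, pow_succ]
        group
    obtain ⟨w', hw', e⟩ := key p
    have hap : a ^ p = 1 := by
      rw [ha, xG_pow hF, CharP.cast_eq_zero, zero_mul, hF.c.xG_zero]
    rw [hap, one_mul] at e
    rw [pow_succ', pow_mul, e]
    exact ih (k + 1) (by omega) (by omega) w' hw'

omit f in
theorem U_isPElt {p : ℕ} [CharP F p] {u : GL D.Idx F} (hu : u ∈ D.posUnipotent F) :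
    u ^ (p ^ (D.nroots - R.N)) = 1 := by
  have hNn : R.N ≤ D.nroots := by
    have := hF.two
    omega
  rw [hF.U_eq_Uk] at hu
  exact Uk_pow hF _ R.N (by omega) le_rfl u hu

omit f in
theorem tor_pow (c : Fin D.rank → Fˣ) (n : ℕ) : tor R D c ^ n = tor R D (c ^ n) := by
  have := map_pow (torHom (F := F) R D) c n
  simpa using this.symm

omit f in
/-- The diagonal subgroup has no `p`-torsion. -/
theorem tor_no_torsion {p : ℕ} [Fact p.Prime] [CharP F p] {t : GL D.Idx F} (ht : t ∈ D.diagonalSubgroup F) {e : ℕ}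
    (h : t ^ (p ^ e) = 1) : t = 1 := by
  obtain ⟨c, rfl⟩ := hF.mem_diagonal_iff.1 ht
  rw [tor_pow hF] at h
  rw [hF.tor_eq_one_iff] at h ⊢
  intro j hj
  have h1 := h j hj
  have h2 : cartanMap D (c ^ (p ^ e)) j = cartanMap D c j ^ (p ^ e) := by
    simp only [cartanMap, Pi.pow_apply]
    rw [← Finset.prod_pow]
    apply Finset.prod_congr rfl
    intro i _
    have h3 := zpow_comm (c i) ((p ^ e : ℕ) : ℤ) (D.cartan i (D.simple j))
    rw [zpow_natCast, zpow_natCast] at h3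
    exact h3
  rw [h2] at h1
  have h3 : ((cartanMap D c j : Fˣ) : F) ^ (p ^ e) = 1 := by
    have := congrArg (fun w : Fˣ => (w : F)) h1
    simpa using this
  have h4 : (((cartanMap D c j : Fˣ) : F) - 1) ^ (p ^ e) = 0 := by
    rw [sub_pow_char_pow, h3, one_pow, sub_self]
  have h5 := pow_eq_zero_iff (pow_ne_zero _ (Fact.out : p.Prime).ne_zero) |>.1 h4
  apply Units.ext
  simpa using sub_eq_zero.1 h5

omit f in
/-- Powers of an element of the Borel subgroup. -/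
theorem borel_pow {u t : GL D.Idx F} (hu : u ∈ D.posUnipotent F) (ht : t ∈ D.diagonalSubgroup F) (n : ℕ) :
    ∃ u' ∈ D.posUnipotent F, (u * t) ^ n = u' * t ^ n := by
  induction n with
  | zero => exact ⟨1, one_mem _, by simp⟩
  | succ n ih =>
    obtain ⟨u', hu', e⟩ := ih
    have h1 := (Subgroup.mem_set_normalizer_iff.1 (hF.diagonal_le_normalizer_U (pow_mem ht n)) u).1 hu
    refine ⟨u' * (t ^ n * u * (t ^ n)⁻¹), mul_mem hu' h1, ?_⟩
    rw [pow_succ, e, pow_succ]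
    group

omit f in
/-- A `p`-element of the Borel subgroup lies in `U`. -/
theorem mem_U_of_pElt {p : ℕ} [Fact p.Prime] [CharP F p] {y : GL D.Idx F} (hy : y ∈ D.borelSubgroup F) {e : ℕ}
    (h : y ^ (p ^ e) = 1) : y ∈ D.posUnipotent F := by
  obtain ⟨u, hu, t, ht, rfl⟩ := hF.mem_borel_iff.1 hy
  obtain ⟨u', hu', e1⟩ := borel_pow hF hu ht (p ^ e)
  rw [h] at e1
  have h2 : t ^ (p ^ e) ∈ D.posUnipotent F ⊓ D.diagonalSubgroup F := by
    refine ⟨?_, pow_mem ht _⟩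
    have : t ^ (p ^ e) = u'⁻¹ := eq_inv_of_mul_eq_one_right e1.symm
    rw [this]
    exact Subgroup.inv_mem _ hu'
  rw [hF.U_inf_H, Subgroup.mem_bot] at h2
  rw [tor_no_torsion hF ht h2, mul_one]
  exact hu

omit f in
/-- The Sylow argument in a finite subgroup containing the `x_r(1)`. -/
theorem conj_into_U {p : ℕ} [hp : Fact p.Prime] [CharP F p] (A : Subgroup (GL D.Idx F)) [Finite ↥A]
    (hAG : A ≤ D.group F) (hA1 : ∀ r < D.nroots, R.N ≤ r → hF.c.xG r 1 ∈ A) (P : Subgroup (GL D.Idx F))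
    (hPA : P ≤ A) (hP : IsPGroup p ↥P) : ∃ g ∈ A, ∀ u ∈ P, g⁻¹ * u * g ∈ D.posUnipotent F := by
  classical
  let S₀ : Subgroup ↥A := (D.posUnipotent F).subgroupOf A
  have hS₀p : IsPGroup p ↥S₀ := by
    rintro ⟨x, hx⟩
    refine ⟨D.nroots - R.N, ?_⟩
    apply Subtype.ext
    apply Subtype.ext
    have := U_isPElt hF (p := p) (Subgroup.mem_subgroupOf.1 hx)
    simpa using this
  obtain ⟨Q, hQ⟩ := hS₀p.exists_le_sylow
  have hQS : (Q : Subgroup ↥A) ≤ S₀ := by
    by_contra hcon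
    haveI : Group.IsNilpotent ↥(Q : Subgroup ↥A) := Q.isPGroup'.isNilpotent
    let S₁ : Subgroup ↥(Q : Subgroup ↥A) := S₀.subgroupOf (Q : Subgroup ↥A)
    have hlt : S₁ < ⊤ := by
      refine lt_top_iff_ne_top.2 ?_
      intro htop
      apply hcon
      intro x hx
      have : (⟨x, hx⟩ : ↥(Q : Subgroup ↥A)) ∈ S₁ := by
        rw [htop]
        trivial
      exact Subgroup.mem_subgroupOf.1 this
    have h1 := Group.normalizerCondition_of_isNilpotent S₁ hlt
    obtain ⟨y, hy, hy2⟩ := SetLike.exists_of_lt h1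
    have hyS : y.1.1 ∈ D.posUnipotent F := by
      have hyB : y.1.1 ∈ D.borelSubgroup F := by
        apply mem_B_of_norm hF (hAG y.1.2)
        intro r hr hr'
        have hxA : hF.c.xG r 1 ∈ A := hA1 r hr hr'
        have hxU : hF.c.xG r 1 ∈ D.posUnipotent F := hF.xG_mem_U hr hr' 1
        have hxS : (⟨hF.c.xG r 1, hxA⟩ : ↥A) ∈ S₀ := Subgroup.mem_subgroupOf.2 hxU
        have hxQ := hQ hxS
        have hxS₁ : (⟨⟨hF.c.xG r 1, hxA⟩, hxQ⟩ : ↥(Q : Subgroup ↥A)) ∈ S₁ := Subgroup.mem_subgroupOf.2 hxS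
        have h3 := (Subgroup.mem_normalizer_iff.1 hy _).1 hxS₁
        exact h3
      obtain ⟨k, hk⟩ := Q.isPGroup' y
      have hk2 : y.1.1 ^ (p ^ k) = 1 := by
        have := congrArg (fun w : ↥(Q : Subgroup ↥A) => w.1.1) hk
        simpa using this
      exact mem_U_of_pElt hF hyB hk2
    apply hy2
    exact Subgroup.mem_subgroupOf.2 (Subgroup.mem_subgroupOf.2 hyS)
  have hP' : IsPGroup p (P.subgroupOf A) := hP.of_equiv (Subgroup.subgroupOfEquivOfLe hPA).symm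
  obtain ⟨Q', hQ'⟩ := hP'.exists_le_sylow
  obtain ⟨g, hg⟩ := MulAction.exists_smul_eq ↥A Q' Q
  refine ⟨g⁻¹.1, (g⁻¹).2, fun u hu => ?_⟩
  have h1 : (⟨u, hPA hu⟩ : ↥A) ∈ (Q' : Subgroup ↥A) := hQ' (Subgroup.mem_subgroupOf.2 hu)
  have h2 : g * (⟨u, hPA hu⟩ : ↥A) * g⁻¹ ∈ (Q : Subgroup ↥A) := by
    rw [← hg, Sylow.coe_subgroup_smul, Subgroup.mem_pointwise_smul_iff_inv_smul_mem]
    simpa [MulAut.inv_def, MulAut.conj_apply, mul_assoc] using h1
  have h3 : g.1 * u * g.1⁻¹ ∈ D.posUnipotent F := Subgroup.mem_subgroupOf.1 (hQS h2)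
  simpa using h3

section Over

variable (H : Subgroup (GL D.Idx F)) (hHG : H ≤ D.group F) (hM : Lf D f ≤ H)
  (hNS : ∀ u ∈ H, u ∈ D.posUnipotent F → glMap D f u = u)

include hHG hM hNS

/-- The defect of an element of `H ∩ B`. -/
theorem B_defect (hT2 : T2Tab R D) (hrk : 0 < D.rank) {b : GL D.Idx F} (hbH : b ∈ H) (hbB : b ∈ D.borelSubgroup F) :
    b⁻¹ * glMap D f b ∈ D.posUnipotent F ∧ ∀ r < D.nroots, R.N ≤ r →
      (b⁻¹ * glMap D f b) * hF.c.xG r 1 = hF.c.xG r 1 * (b⁻¹ * glMap D f b) := by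
  have hbG := hHG hbH
  have hbN : b ∈ Subgroup.normalizer (D.posUnipotent F : Set (GL D.Idx F)) := by
    obtain ⟨u, hu, t, ht, hut⟩ := hF.mem_borel_iff.1 hbB
    rw [hut]
    exact mul_mem (Subgroup.le_normalizer hu) (hF.diagonal_le_normalizer_U ht)
  have key : ∀ r < D.nroots, R.N ≤ r →
      (b⁻¹ * glMap D f b) * hF.c.xG r 1 = hF.c.xG r 1 * (b⁻¹ * glMap D f b) := by
    intro r hr hr'
    have h2 := (Subgroup.mem_set_normalizer_iff.1 hbN _).1 (hF.xG_mem_U hr hr' (1 : F))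
    have h3 : b * hF.c.xG r 1 * b⁻¹ ∈ H := mul_mem (mul_mem hbH (x_rat hF f H hM hr (map_one f))) (inv_mem hbH)
    have h4 := hNS _ h3 h2
    rw [map_mul, map_mul, map_inv, sig_xG hF, map_one] at h4
    have h5 : (b⁻¹ * glMap D f b) * hF.c.xG r 1 * (b⁻¹ * glMap D f b)⁻¹ = hF.c.xG r 1 := by
      calc (b⁻¹ * glMap D f b) * hF.c.xG r 1 * (b⁻¹ * glMap D f b)⁻¹
          = b⁻¹ * (glMap D f b * hF.c.xG r 1 * (glMap D f b)⁻¹) * b := by group
        _ = _ := by rw [h4]; group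
    calc (b⁻¹ * glMap D f b) * hF.c.xG r 1
        = ((b⁻¹ * glMap D f b) * hF.c.xG r 1 * (b⁻¹ * glMap D f b)⁻¹) * (b⁻¹ * glMap D f b) := by group
      _ = _ := by rw [h5]
  refine ⟨?_, key⟩
  apply cent_le_U hF hrk hT2 (mul_mem (inv_mem hbG) (sig_group f hbG))
  intro r hr hrk'
  exact key r hr (hF.pos_of_rc_pos hr hrk hrk')

variable (hNB : ∀ b ∈ H, b ∈ D.borelSubgroup F → glMap D f b = b)

include hNB

/-- Lemma A: `H ∩ P_J` is fixed by `σ` for `J` proper. -/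
theorem fixed_of_parabolic (hT2 : T2Tab R D) {J : Set ℕ} {k : ℕ} (hk : k < D.rank) (hkJ : k ∉ J)
    {y : GL D.Idx F} (hyH : y ∈ H) (hyP : y ∈ D.parabolicSubgroup F J) : glMap D f y = y := by
  have hyG := hHG hyH
  have hone : ∀ r < D.nroots, ∀ c : F, f c = c → hF.c.xG r c ∈ H := fun r hr c hc =>
    x_rat hF f H hM hr hc
  have h1 : y⁻¹ * glMap D f y ∈ D.posUnipotent F := by
    apply cent_le_U hF hk hT2 (mul_mem (inv_mem hyG) (sig_group f hyG))
    intro r hr hrk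
    have hxR : hF.c.xG r 1 ∈ D.unipotentRadical F J := by
      rw [unipotentRadical_eq]
      exact hF.xG_mem_rootClosure (hF.QU_of_rc hr hk hkJ hrk) _
    have h2 := (Subgroup.mem_set_normalizer_iff.1 (hF.parabolic_le_normalizer J hyP) _).1 hxR
    have h3 : y * hF.c.xG r 1 * y⁻¹ ∈ H := mul_mem (mul_mem hyH (hone r hr 1 (map_one f))) (inv_mem hyH)
    have h4 := hNS _ h3 (hF.radical_le_U J h2)
    rw [map_mul, map_mul, map_inv, sig_xG hF, map_one] at h4
    have h5 : (y⁻¹ * glMap D f y) * hF.c.xG r 1 * (y⁻¹ * glMap D f y)⁻¹ = hF.c.xG r 1 := by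
      calc (y⁻¹ * glMap D f y) * hF.c.xG r 1 * (y⁻¹ * glMap D f y)⁻¹
          = y⁻¹ * (glMap D f y * hF.c.xG r 1 * (glMap D f y)⁻¹) * y := by group
        _ = _ := by rw [h4]; group
    calc (y⁻¹ * glMap D f y) * hF.c.xG r 1
        = ((y⁻¹ * glMap D f y) * hF.c.xG r 1 * (y⁻¹ * glMap D f y)⁻¹) * (y⁻¹ * glMap D f y) := by group
      _ = _ := by rw [h5]
  obtain ⟨a, haL, hp⟩ := rat_parabolic hF f ∅ hyG (by
    rw [parabolic_empty]
    exact U_le_B hF h1)
  rw [parabolic_empty] at hp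
  have h6 := hNB _ (mul_mem (inv_mem (hM haL)) hyH) hp
  rw [map_mul, map_inv, sig_of_mem_Lf hF f haL] at h6
  exact mul_left_cancel h6

/-- The rational Borel-Tits property. -/
theorem normalizer_fixed [Finite ↥H] {p : ℕ} [Fact p.Prime] [CharP F p] (hT2 : T2Tab R D)
    (U : Subgroup (GL D.Idx F)) (hUH : U ≤ H) (hUfix : ∀ u ∈ U, glMap D f u = u)
    (hU : IsPGroup p ↥U) (hne : U ≠ ⊥) {y : GL D.Idx F} (hyH : y ∈ H)
    (hyN : y ∈ Subgroup.normalizer (U : Set (GL D.Idx F))) : glMap D f y = y := by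
  open Cfsg.Agent.Lib.BorelTits50 in
  have hUG : U ≤ D.group F := le_trans hUH hHG
  obtain ⟨g₀, hg₀, hg₀U⟩ := conj_into_U hF H hHG (fun r hr hr' => x_rat hF f H hM hr (map_one f)) U hUH hU
  replace hg₀ := hHG hg₀
  have hx0 : (fun _ => 1) ∈ XX R D U := ⟨g₀, hg₀, fun u hu => U_le_Fp_one hF (hg₀U u hu)⟩
  obtain ⟨x, ⟨g, hg⟩, hmin⟩ := exists_min hF U ⟨_, hx0⟩
  obtain ⟨n, hdom⟩ := exists_dominant hF (F := F) x
  set x' := actV hF (hF.rhoN F n) x with hx'
  have hA : Adm R D U (g * n.1⁻¹) x' := by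
    refine ⟨mul_mem hg.1 (inv_mem (hF.c.monomial_le_group n.2)), fun u hu => ?_⟩
    have h1 := conj_mem_Fp hF n x (hg.2 u hu)
    have e : (g * n.1⁻¹)⁻¹ * u * (g * n.1⁻¹) = n.1 * (g⁻¹ * u * g) * n.1⁻¹ := by group
    rw [e]
    exact h1
  have hm : ∀ x'' ∈ XX R D U, Qn R D x' ≤ Qn R D x'' := by
    rw [hx', Qn_actV hF (hF.rhoN_mem_Wk n)]
    exact hmin
  set g' := g * n.1⁻¹ with hg'
  -- properness
  have hprop : ∃ k, k < D.rank ∧ k ∉ Jx x' := by
    by_contra hcon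
    push Not at hcon
    apply hne
    rw [eq_bot_iff]
    intro u hu
    have h0 : Fp R D F x' = ⊥ := by
      unfold Fp Full.rootClosure
      rw [Subgroup.closure_eq_bot_iff]
      rintro v ⟨s, t, hs, _⟩
      exfalso
      have h2 : lin R D x' s = 0 := by
        unfold lin
        apply Finset.sum_eq_zero
        intro j _
        obtain ⟨_, h3⟩ := hcon j j.2
        have h4 : x' j = 0 := h3
        rw [h4, zero_mul]
      have := hs.2
      rw [h2] at this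
      linarith
    have h1 := hA.2 u hu
    rw [h0, Subgroup.mem_bot] at h1
    rw [Subgroup.mem_bot]
    have e : u = g' * (g'⁻¹ * u * g') * g'⁻¹ := by group
    rw [e, h1]
    group
  obtain ⟨k, hk, hkJ⟩ := hprop
  -- `σ(g')` is admissible too
  have hA2 : Adm R D U (glMap D f g') x' := by
    refine ⟨sig_group f hA.1, fun u hu => ?_⟩
    have h1 := hA.2 u hu
    have h2 := sig_rootClosure hF f h1
    rw [map_mul, map_mul, map_inv, hUfix u hu] at h2
    exact h2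
  have h3 := unique_min hF U hA hA2 hdom hdom hm hm
  obtain ⟨a, haL, hap⟩ := rat_parabolic hF f _ hA.1 h3
  have hsa := sig_of_mem_Lf hF f haL
  have haH := hM haL
  have hA' : Adm R D U (y * g') x' := by
    refine ⟨mul_mem (hHG hyH) hA.1, fun u hu => ?_⟩
    have h1 : y⁻¹ ∈ Subgroup.normalizer (U : Set (GL D.Idx F)) := inv_mem hyN
    have h2 := (Subgroup.mem_set_normalizer_iff.1 h1 u).1 hu
    have h3 := hA.2 _ h2
    have e : (y * g')⁻¹ * u * (y * g') = g'⁻¹ * (y⁻¹ * u * y⁻¹⁻¹) * g' := by group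
    rw [e]
    exact h3
  have h4 := unique_min hF U hA hA' hdom hdom hm hm
  have h5 : a⁻¹ * y * a ∈ D.parabolicSubgroup F (Jx x') := by
    have e : a⁻¹ * y * a = (a⁻¹ * g') * (g'⁻¹ * (y * g')) * (a⁻¹ * g')⁻¹ := by group
    rw [e]
    exact mul_mem (mul_mem hap h4) (inv_mem hap)
  have h6 : a⁻¹ * y * a ∈ H := mul_mem (mul_mem (inv_mem haH) hyH) haH
  have h7 := fixed_of_parabolic hF f H hHG hM hNS hNB hT2 hk hkJ h6 h5
  rw [map_mul, map_mul, map_inv, hsa] at h7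
  have h8 : glMap D f y * a = y * a := mul_left_cancel (a := a⁻¹) (by
    rw [← mul_assoc, ← mul_assoc]
    exact h7)
  exact mul_right_cancel h8

/-- The characteristic two case. -/
theorem over_two [Finite ↥H] [CharP F 2] (hT2 : T2Tab R D) {t1 t2 : GL D.Idx F}
    (h1H : t1 ∈ H) (h2H : t2 ∈ H) (f1 : glMap D f t1 = t1) (f2 : glMap D f t2 = t2)
    (o1 : orderOf t1 = 2) (o2 : orderOf t2 = 2) (hnc : ∀ g ∈ D.group F, g * t1 * g⁻¹ ≠ t2)
    {x : GL D.Idx F} (hx : x ∈ H) : glMap D f x = x := by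
  classical
  by_contra hxne
  haveI : Fact (Nat.Prime 2) := ⟨Nat.prime_two⟩
  let M' : Subgroup ↥H := (fixSub D f).subgroupOf H
  have hmem : ∀ y : ↥H, y ∈ M' ↔ glMap D f y.1 = y.1 := by
    intro y
    rw [Subgroup.mem_subgroupOf]
    exact ⟨fun h => h.2, fun h => ⟨hHG y.2, h⟩⟩
  have hne : M' ≠ ⊤ := by
    intro h
    apply hxne
    have : (⟨x, hx⟩ : ↥H) ∈ M' := by
      rw [h]
      exact Subgroup.mem_top _
    exact (hmem _).1 this
  have h1M : (⟨t1, h1H⟩ : ↥H) ∈ M' := (hmem _).2 f1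
  have h2M : (⟨t2, h2H⟩ : ↥H) ∈ M' := (hmem _).2 f2
  have o1' : orderOf (⟨t1, h1H⟩ : ↥H) = 2 := by
    rw [Subgroup.orderOf_mk]
    exact o1
  have o2' : orderOf (⟨t2, h2H⟩ : ↥H) = 2 := by
    rw [Subgroup.orderOf_mk]
    exact o2
  obtain ⟨P⟩ : Nonempty (Sylow 2 ↥M') := inferInstance
  have hdvd : 2 ∣ Nat.card ↥M' := by
    have h3 : orderOf (⟨⟨t1, h1H⟩, h1M⟩ : ↥M') = 2 := by
      rw [Subgroup.orderOf_mk]
      exact o1'
    rw [← h3]
    exact orderOf_dvd_natCard _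
  have hP : (P : Subgroup ↥M') ≠ ⊥ := P.ne_bot_of_dvd_card hdvd
  have hSE : Cfsg.IsStronglyEmbedded M' := by
    refine (isStronglyEmbedded_iff_normalizer M' hne P hP).2 ?_
    intro Y hYP hYne y hy
    rw [hmem]
    let U : Subgroup (GL D.Idx F) := (Y.map M'.subtype).map H.subtype
    have hUmem : ∀ u, u ∈ U ↔ ∃ hu : u ∈ H, (⟨u, hu⟩ : ↥H) ∈ Y.map M'.subtype := by
      intro u
      constructor
      · rintro ⟨v, hv, rfl⟩
        exact ⟨v.2, hv⟩
      · rintro ⟨hu, hv⟩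
        exact ⟨⟨u, hu⟩, hv, rfl⟩
    have hUH : U ≤ H := by
      intro u hu
      obtain ⟨h3, _⟩ := (hUmem u).1 hu
      exact h3
    have hUfix : ∀ u ∈ U, glMap D f u = u := by
      intro u hu
      obtain ⟨h3, v, _, hv⟩ := (hUmem u).1 hu
      have h4 := (hmem _).1 v.2
      have h5 : (v : ↥H) = ⟨u, h3⟩ := hv
      rw [h5] at h4
      exact h4
    have hUp : IsPGroup 2 ↥U := ((P.isPGroup'.to_le hYP).map _).map _
    have hUne : U ≠ ⊥ := by
      intro h
      apply hYne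
      have h3 := (Subgroup.map_eq_bot_iff_of_injective _ H.subtype_injective).1 h
      exact (Subgroup.map_eq_bot_iff_of_injective _ M'.subtype_injective).1 h3
    have hyN : y.1 ∈ Subgroup.normalizer (U : Set (GL D.Idx F)) := by
      rw [Subgroup.mem_set_normalizer_iff]
      intro u
      have h3 := Subgroup.mem_set_normalizer_iff.1 hy
      constructor
      · intro hu
        obtain ⟨h4, h5⟩ := (hUmem u).1 hu
        have h6 := (h3 ⟨u, h4⟩).1 h5
        exact (hUmem _).2 ⟨mul_mem (mul_mem y.2 h4) (inv_mem y.2), h6⟩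
      · intro hu
        obtain ⟨h4, h5⟩ := (hUmem _).1 hu
        have h7 : u ∈ H := by
          have e : u = y.1⁻¹ * (y.1 * u * y.1⁻¹) * y.1 := by group
          rw [e]
          exact mul_mem (mul_mem (inv_mem y.2) h4) y.2
        exact (hUmem u).2 ⟨h7, (h3 ⟨u, h7⟩).2 h5⟩
    exact normalizer_fixed hF f H hHG hM hNS hNB hT2 U hUH hUfix hUp hUne y.2 hyN
  refine dihedral_contra M' hne hSE h1M h2M o1' o2' ?_
  intro hconj
  obtain ⟨g, hg⟩ := isConj_iff.1 hconj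
  exact hnc g.1 (hHG g.2) (congrArg Subtype.val hg)


end Over

end Cfsg.Agent.Lib.ChevSub2
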